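import Cfsg.Agent.Lib.H94.F23.Words
set_option autoImplicit false
set_option maxRecDepth 100000
set_option linter.all false
set_option Elab.async false
namespace H94.F23
open H35.TC H35.Net
theorem k_D : Nat.beq (reachF net gH 3 (Nat.shiftLeft 1 703)) (Dm) = true := by decide +kernel
theorem k_O1 : Nat.beq (reachF net gH 3 (Nat.shiftLeft 1 8002)) (O1m) = true := by decide +kernel
theorem k_O2 : Nat.beq (reachF net gT 6 (Nat.shiftLeft 1 1)) (O2m) = true := by decide +kernel
theorem k_U : Nat.beq (Nat.lor (Nat.lor Dm O1m) O2m) (Nat.sub (Nat.pow 2 31671) 1) = true := by decide +kernel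
theorem k_cD : chkClosed net gH Dm = true := by decide +kernel
theorem k_cO1 : chkClosed net gT O1m = true := by decide +kernel
theorem k_m1 : chkTrans net (gH ++ [[.f]]) 4 31671 8002 = true := by decide +kernel
theorem k_m2 : chkTrans net (gH ++ [T_1]) 4 31671 1 = true := by decide +kernel
end H94.F23
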