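import Cfsg.Agent.Lib.H94.F23.Words
set_option autoImplicit false
set_option maxRecDepth 100000
set_option linter.all false
set_option Elab.async false
namespace H94.F23
open H35.TC H35.Net
theorem k_pO1 : Nat.beq (popc 15 O1m) 11664 = true := by decide +kernel
theorem k_pO2 : Nat.beq (popc 15 O2m) 19683 = true := by decide +kernel
theorem k_pM36m : Nat.beq (popc 15 M36m) 36 = true := by decide +kernel
theorem k_pM32m : Nat.beq (popc 15 M32m) 32 = true := by decide +kernel
theorem k_pM24m : Nat.beq (popc 15 M24m) 24 = true := by decide +kernel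
theorem k_pM288m : Nat.beq (popc 15 M288m) 288 = true := by decide +kernel
theorem k_pB0m : Nat.beq (popc 15 B0m) 4 = true := by decide +kernel
theorem k_pB4m : Nat.beq (popc 15 B4m) 4 = true := by decide +kernel
theorem k_pB8m : Nat.beq (popc 15 B8m) 4 = true := by decide +kernel
theorem k_M36 : Nat.beq (fixIn (appF net T_1) 15 Dm) (M36m) = true := by decide +kernel
theorem k_B0 : Nat.beq (fixIn (appF net T_107) 15 M36m) (B0m) = true := by decide +kernel
theorem k_B4 : Nat.beq (fixIn (appF net T_3846) 15 M36m) (B4m) = true := by decide +kernel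
theorem k_B8 : Nat.beq (fixIn (appF net T_3560) 15 M36m) (B8m) = true := by decide +kernel
theorem k_M32 : Nat.beq (Nat.xor M36m B0m) (M32m) = true := by decide +kernel
theorem k_M24 : Nat.beq (Nat.xor (Nat.xor M32m B4m) B8m) (M24m) = true := by decide +kernel
theorem k_M288 : Nat.beq (Nat.xor Dm M36m) (M288m) = true := by decide +kernel
theorem k_fB : chkFixF net wsB [1] = true := by decide +kernel
theorem k_cB : chkClosed net wsB Dm = true := by decide +kernel
theorem k_fC : chkFixF net wsC [107, 1] = true := by decide +kernel
theorem k_cC : chkClosed net wsC Dm = true := by decide +kernel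
theorem k_rB : Nat.beq (reachF net wsB 3 (Nat.shiftLeft 1 107)) (M36m) = true := by decide +kernel
theorem k_rC : Nat.beq (reachF net wsC 2 (Nat.shiftLeft 1 3846)) (M32m) = true := by decide +kernel
theorem k_rE : Nat.beq (reachF net wsB 4 (Nat.shiftLeft 1 703)) (M288m) = true := by decide +kernel
theorem k_rF : chkTrans net (wsB ++ [T_1, T_703]) 7 31671 1 = true := by decide +kernel
theorem k_b8 : Nat.beq (appF net T_3846 (Nat.shiftLeft 1 107)) (Nat.shiftLeft 1 3560) = true := by decide +kernel
end H94.F23
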