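import Cfsg.Agent.Lib.H94.F23.Words
set_option autoImplicit false
set_option maxRecDepth 100000
set_option linter.all false
set_option Elab.async false
namespace H94.F23
open H35.TC H35.Net
theorem k_w1259 : Nat.beq (reachF net [T_107, T_210, T_3846, T_1259] 2 (Nat.shiftLeft 1 1259)) (M36m) = true := by decide +kernel
theorem k_w1368 : Nat.beq (reachF net [T_107, T_210, T_3846, T_1368] 2 (Nat.shiftLeft 1 1368)) (M36m) = true := by decide +kernel
theorem k_w1396 : Nat.beq (reachF net [T_107, T_210, T_3846, T_1396] 2 (Nat.shiftLeft 1 1396)) (M36m) = true := by decide +kernel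
theorem k_w3011 : Nat.beq (reachF net [T_107, T_210, T_3846, T_3011] 2 (Nat.shiftLeft 1 3011)) (M36m) = true := by decide +kernel
theorem k_w3186 : Nat.beq (reachF net [T_107, T_210, T_3846, T_3186] 2 (Nat.shiftLeft 1 3186)) (M36m) = true := by decide +kernel
theorem k_w3359 : Nat.beq (reachF net [T_107, T_210, T_3846, T_3359] 2 (Nat.shiftLeft 1 3359)) (M36m) = true := by decide +kernel
end H94.F23
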