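import Cfsg.Agent.Lib.H94.F23.Words
set_option autoImplicit false
set_option maxRecDepth 100000
set_option linter.all false
set_option Elab.async false
namespace H94.F23
open H35.TC H35.Net
theorem k_w3758 : Nat.beq (reachF net [T_107, T_210, T_3846, T_3758] 2 (Nat.shiftLeft 1 3758)) (M36m) = true := by decide +kernel
theorem k_w4140 : Nat.beq (reachF net [T_107, T_210, T_3846, T_4140] 2 (Nat.shiftLeft 1 4140)) (M36m) = true := by decide +kernel
theorem k_w4243 : Nat.beq (reachF net [T_107, T_210, T_3846, T_4243] 2 (Nat.shiftLeft 1 4243)) (M36m) = true := by decide +kernel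
theorem k_w4861 : Nat.beq (reachF net [T_107, T_210, T_3846, T_4861] 2 (Nat.shiftLeft 1 4861)) (M36m) = true := by decide +kernel
theorem k_w5324 : Nat.beq (reachF net [T_107, T_210, T_3846, T_5324] 2 (Nat.shiftLeft 1 5324)) (M36m) = true := by decide +kernel
theorem k_w6299 : Nat.beq (reachF net [T_107, T_210, T_3846, T_6299] 2 (Nat.shiftLeft 1 6299)) (M36m) = true := by decide +kernel
end H94.F23
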