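import Cfsg.Agent.Lib.H94.F23.Words
set_option autoImplicit false
set_option maxRecDepth 100000
set_option linter.all false
set_option Elab.async false
namespace H94.F23
open H35.TC H35.Net
theorem k_w6711 : Nat.beq (reachF net [T_107, T_210, T_3846, T_6711] 2 (Nat.shiftLeft 1 6711)) (M36m) = true := by decide +kernel
theorem k_w7424 : Nat.beq (reachF net [T_107, T_210, T_3846, T_7424] 2 (Nat.shiftLeft 1 7424)) (M36m) = true := by decide +kernel
theorem k_w8181 : Nat.beq (reachF net [T_107, T_210, T_3846, T_8181] 2 (Nat.shiftLeft 1 8181)) (M36m) = true := by decide +kernel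
theorem k_w9792 : Nat.beq (reachF net [T_107, T_210, T_3846, T_9792] 2 (Nat.shiftLeft 1 9792)) (M36m) = true := by decide +kernel
theorem k_w9795 : Nat.beq (reachF net [T_107, T_210, T_3846, T_9795] 2 (Nat.shiftLeft 1 9795)) (M36m) = true := by decide +kernel
theorem k_w10154 : Nat.beq (reachF net [T_107, T_210, T_3846, T_10154] 2 (Nat.shiftLeft 1 10154)) (M36m) = true := by decide +kernel
end H94.F23
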