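import Cfsg.Agent.Lib.H94.F23.Words
set_option autoImplicit false
set_option maxRecDepth 100000
set_option linter.all false
set_option Elab.async false
namespace H94.F23
open H35.TC H35.Net
theorem k_w11099 : Nat.beq (reachF net [T_107, T_210, T_3846, T_11099] 2 (Nat.shiftLeft 1 11099)) (M36m) = true := by decide +kernel
theorem k_w11422 : Nat.beq (reachF net [T_107, T_210, T_3846, T_11422] 2 (Nat.shiftLeft 1 11422)) (M36m) = true := by decide +kernel
theorem k_w12285 : Nat.beq (reachF net [T_107, T_210, T_3846, T_12285] 2 (Nat.shiftLeft 1 12285)) (M36m) = true := by decide +kernel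
theorem k_w14574 : Nat.beq (reachF net [T_107, T_210, T_3846, T_14574] 2 (Nat.shiftLeft 1 14574)) (M36m) = true := by decide +kernel
theorem k_w18780 : Nat.beq (reachF net [T_107, T_210, T_3846, T_18780] 2 (Nat.shiftLeft 1 18780)) (M36m) = true := by decide +kernel
theorem k_w20105 : Nat.beq (reachF net [T_107, T_210, T_3846, T_20105] 2 (Nat.shiftLeft 1 20105)) (M36m) = true := by decide +kernel
end H94.F23
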