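import Cfsg.Agent.Lib.H94.F23.Net
set_option autoImplicit false
set_option maxRecDepth 100000
set_option linter.all false
set_option Elab.async false
namespace H94.F23
open H35.TC H35.Net
theorem ckd_0 : chkW net 15 (wd_0 ++ [.n0]) 1 0 15 = true := by decide +kernel
theorem cki_0 : chkW net 15 [.p0, .n0] 1 0 15 = true := by decide +kernel
theorem ckd_1 : chkW net 15 (wd_1 ++ [.n1]) 1 0 15 = true := by decide +kernel
theorem cki_1 : chkW net 15 [.p1, .n1] 1 0 15 = true := by decide +kernel
theorem ckd_2 : chkW net 15 (wd_2 ++ [.n2]) 1 0 15 = true := by decide +kernel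
theorem cki_2 : chkW net 15 [.p2, .n2] 1 0 15 = true := by decide +kernel
theorem ckd_3 : chkW net 15 (wd_3 ++ [.n3]) 1 0 15 = true := by decide +kernel
theorem cki_3 : chkW net 15 [.p3, .n3] 1 0 15 = true := by decide +kernel
end H94.F23
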