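import Cfsg.Agent.Lib.H94.F23.Net
set_option autoImplicit false
set_option maxRecDepth 100000
set_option linter.all false
set_option Elab.async false
namespace H94.F23
open H35.TC H35.Net
theorem ckd_4 : chkW net 15 (wd_4 ++ [.n4]) 1 0 15 = true := by decide +kernel
theorem cki_4 : chkW net 15 [.p4, .n4] 1 0 15 = true := by decide +kernel
theorem ckd_5 : chkW net 15 (wd_5 ++ [.n5]) 1 0 15 = true := by decide +kernel
theorem cki_5 : chkW net 15 [.p5, .n5] 1 0 15 = true := by decide +kernel
theorem ckd_6 : chkW net 15 (wd_6 ++ [.n6]) 1 0 15 = true := by decide +kernel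
theorem cki_6 : chkW net 15 [.p6, .n6] 1 0 15 = true := by decide +kernel
end H94.F23
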