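import Cfsg.Agent.Lib.H94.F23.Net
set_option autoImplicit false
set_option maxRecDepth 100000
set_option linter.all false
set_option Elab.async false
namespace H94.F23
open H35.TC H35.Net
theorem ckd_7 : chkW net 15 (wd_7 ++ [.n7]) 1 0 15 = true := by decide +kernel
theorem cki_7 : chkW net 15 [.p7, .n7] 1 0 15 = true := by decide +kernel
theorem ckd_8 : chkW net 15 (wd_8 ++ [.n8]) 1 0 15 = true := by decide +kernel
theorem cki_8 : chkW net 15 [.p8, .n8] 1 0 15 = true := by decide +kernel
theorem ckd_9 : chkW net 15 (wd_9 ++ [.n9]) 1 0 15 = true := by decide +kernel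
theorem cki_9 : chkW net 15 [.p9, .n9] 1 0 15 = true := by decide +kernel
end H94.F23
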