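import Mathlib
import Cfsg.Agent.Lib.H35.Fi23Main
import Cfsg.Agent.Lib.H35.FiClass23
import Cfsg.Agent.Lib.H94.F23.Rel0
import Cfsg.Agent.Lib.H94.F23.Rel1
import Cfsg.Agent.Lib.H94.F23.Rel2

/-!
# The presented group Fi23: extra elements given by networks, transpositions of points
-/

set_option autoImplicit false
set_option linter.all false
set_option maxRecDepth 10000

namespace H94.F23

open H35.TC H35.Net Cfsg.Spor H35.Fi23Main H35.FiClass23

/-- the group -/
abbrev G := Cfsg.Spor.Fi23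

/-- letters of Fi23 -/
abbrev LT := H35.TCFi23A.Lt

theorem inv_app (σ : Equiv.Perm ℕ) (x : ℕ) : σ⁻¹ (σ x) = x := σ.symm_apply_apply x

theorem app_inv (σ : Equiv.Perm ℕ) (x : ℕ) : σ (σ⁻¹ x) = x := σ.apply_symm_apply x

theorem rng_word {i : ℕ} (hlow : ∀ x, idx x ≤ i → π x ∈ φ.range) {w : List X}
    (hall : w.all (fun x => Nat.ble (idx x) i) = true) : (w.map π).prod ∈ φ.range := by
  apply Subgroup.list_prod_mem
  intro y hy
  obtain ⟨x, hx, rfl⟩ := List.mem_map.1 hy
  exact hlow x (Nat.le_of_ble_eq_true (List.all_eq_true.1 hall x hx))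

theorem rng_step {i : ℕ} (hlow : ∀ x, idx x ≤ i → π x ∈ φ.range) {w : List X} {p n : X}
    (hall : w.all (fun x => Nat.ble (idx x) i) = true)
    (h1 : chkW net 15 (w ++ [n]) 1 0 15 = true) (h2 : chkW net 15 [p, n] 1 0 15 = true) :
    π p ∈ φ.range ∧ π n ∈ φ.range := by
  have e1 := pow_eq_one_of_chk hbp h1
  have e2 := pow_eq_one_of_chk hbp h2
  rw [pow_one, List.map_append, List.prod_append] at e1
  rw [pow_one] at e2
  simp only [List.map_cons, List.map_nil, List.prod_cons, List.prod_nil, mul_one] at e1 e2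
  have hw := rng_word hlow hall
  have hp : π p = (w.map π).prod := by
    rw [eq_comm, ← mul_left_inj (π n), e1, e2]
  have hn : π n = ((w.map π).prod)⁻¹ := eq_inv_of_mul_eq_one_right e1
  exact ⟨hp ▸ hw, hn ▸ inv_mem hw⟩

theorem rng : ∀ x, π x ∈ φ.range := by
  have hl : ∀ l : LT, π (toX l) ∈ φ.range := fun l => by rw [π_toX]; exact mem_range l
  have l0 : ∀ x, idx x ≤ 0 → π x ∈ φ.range := by
    intro x hx
    cases x <;> first
      | exact hl .a | exact hl .b | exact hl .c | exact hl .d | exact hl .e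
      | exact hl .f | exact hl .g | exact hl .j | exact hl .h | exact hl .i
      | exact absurd hx (by decide)
  have s0 := rng_step l0 (p := .p0) (n := .n0) (w := wd_0) (by decide) ckd_0 cki_0
  have l1 : ∀ x, idx x ≤ 1 → π x ∈ φ.range := by
    intro x hx
    cases x <;> first | exact l0 _ (by decide) | exact s0.1 | exact s0.2 | exact absurd hx (by decide)
  have s1 := rng_step l1 (p := .p1) (n := .n1) (w := wd_1) (by decide) ckd_1 cki_1
  have l2 : ∀ x, idx x ≤ 2 → π x ∈ φ.range := by
    intro x hx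
    cases x <;> first | exact l1 _ (by decide) | exact s1.1 | exact s1.2 | exact absurd hx (by decide)
  have s2 := rng_step l2 (p := .p2) (n := .n2) (w := wd_2) (by decide) ckd_2 cki_2
  have l3 : ∀ x, idx x ≤ 3 → π x ∈ φ.range := by
    intro x hx
    cases x <;> first | exact l2 _ (by decide) | exact s2.1 | exact s2.2 | exact absurd hx (by decide)
  have s3 := rng_step l3 (p := .p3) (n := .n3) (w := wd_3) (by decide) ckd_3 cki_3
  have l4 : ∀ x, idx x ≤ 4 → π x ∈ φ.range := by
    intro x hx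
    cases x <;> first | exact l3 _ (by decide) | exact s3.1 | exact s3.2 | exact absurd hx (by decide)
  have s4 := rng_step l4 (p := .p4) (n := .n4) (w := wd_4) (by decide) ckd_4 cki_4
  have l5 : ∀ x, idx x ≤ 5 → π x ∈ φ.range := by
    intro x hx
    cases x <;> first | exact l4 _ (by decide) | exact s4.1 | exact s4.2 | exact absurd hx (by decide)
  have s5 := rng_step l5 (p := .p5) (n := .n5) (w := wd_5) (by decide) ckd_5 cki_5
  have l6 : ∀ x, idx x ≤ 6 → π x ∈ φ.range := by
    intro x hx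
    cases x <;> first | exact l5 _ (by decide) | exact s5.1 | exact s5.2 | exact absurd hx (by decide)
  have s6 := rng_step l6 (p := .p6) (n := .n6) (w := wd_6) (by decide) ckd_6 cki_6
  have l7 : ∀ x, idx x ≤ 7 → π x ∈ φ.range := by
    intro x hx
    cases x <;> first | exact l6 _ (by decide) | exact s6.1 | exact s6.2 | exact absurd hx (by decide)
  have s7 := rng_step l7 (p := .p7) (n := .n7) (w := wd_7) (by decide) ckd_7 cki_7
  have l8 : ∀ x, idx x ≤ 8 → π x ∈ φ.range := by
    intro x hx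
    cases x <;> first | exact l7 _ (by decide) | exact s7.1 | exact s7.2 | exact absurd hx (by decide)
  have s8 := rng_step l8 (p := .p8) (n := .n8) (w := wd_8) (by decide) ckd_8 cki_8
  have l9 : ∀ x, idx x ≤ 9 → π x ∈ φ.range := by
    intro x hx
    cases x <;> first | exact l8 _ (by decide) | exact s8.1 | exact s8.2 | exact absurd hx (by decide)
  have s9 := rng_step l9 (p := .p9) (n := .n9) (w := wd_9) (by decide) ckd_9 cki_9
  intro x
  cases x <;> first | exact l9 _ (by decide) | exact s9.1 | exact s9.2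

/-- the element of a letter -/
noncomputable def eX (x : X) : G := (rng x).choose

theorem φ_eX (x : X) : φ (eX x) = π x := (rng x).choose_spec

theorem eX_toX (l : LT) : eX (toX l) = gP l := by
  apply card_inj.2
  rw [φ_eX, π_toX, hφ]

/-- value of a word -/
noncomputable def V (w : List X) : G := (w.map eX).prod

theorem φ_V (w : List X) : φ (V w) = (w.map π).prod := by
  unfold V
  rw [map_list_prod, List.map_map]
  congr 1
  apply List.map_congr_left
  intro x _
  exact φ_eX x

theorem V_append (u v : List X) : V (u ++ v) = V u * V v := by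
  unfold V; rw [List.map_append, List.prod_append]

theorem V_cons (x : X) (v : List X) : V (x :: v) = eX x * V v := by
  unfold V; rw [List.map_cons, List.prod_cons]

theorem V_nil : V [] = 1 := rfl

theorem V_single (x : X) : V [x] = eX x := by rw [V_cons, V_nil, mul_one]

theorem V_one {w : List X} (h : chkW net 15 w 1 0 15 = true) : V w = 1 := by
  apply card_inj.2
  have e1 := pow_eq_one_of_chk hbp h
  rw [pow_one] at e1
  rw [φ_V, e1, map_one]

theorem eX_letter_sq (l : LT) : eX (toX l) * eX (toX l) = 1 := by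
  rw [eX_toX]; exact sqP l

theorem eX_iv : ∀ x, eX (iv x) = (eX x)⁻¹ := by
  have hl : ∀ l : LT, eX (toX l) = (eX (toX l))⁻¹ := fun l => (inv_eq_of_mul_eq_one_left (eX_letter_sq l)).symm
  have hp : ∀ p n : X, chkW net 15 [p, n] 1 0 15 = true → eX n = (eX p)⁻¹ ∧ eX p = (eX n)⁻¹ := by
    intro p n h
    have h1 := V_one h
    rw [V_cons, V_single] at h1
    exact ⟨eq_inv_of_mul_eq_one_right h1, eq_inv_of_mul_eq_one_left h1⟩
  intro x
  cases x
  · exact hl .a
  · exact hl .b
  · exact hl .c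
  · exact hl .d
  · exact hl .e
  · exact hl .f
  · exact hl .g
  · exact hl .j
  · exact hl .h
  · exact hl .i
  · exact (hp .p0 .n0 cki_0).1
  · exact (hp .p1 .n1 cki_1).1
  · exact (hp .p2 .n2 cki_2).1
  · exact (hp .p3 .n3 cki_3).1
  · exact (hp .p4 .n4 cki_4).1
  · exact (hp .p5 .n5 cki_5).1
  · exact (hp .p6 .n6 cki_6).1
  · exact (hp .p7 .n7 cki_7).1
  · exact (hp .p8 .n8 cki_8).1
  · exact (hp .p9 .n9 cki_9).1
  · exact (hp .p0 .n0 cki_0).2
  · exact (hp .p1 .n1 cki_1).2
  · exact (hp .p2 .n2 cki_2).2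
  · exact (hp .p3 .n3 cki_3).2
  · exact (hp .p4 .n4 cki_4).2
  · exact (hp .p5 .n5 cki_5).2
  · exact (hp .p6 .n6 cki_6).2
  · exact (hp .p7 .n7 cki_7).2
  · exact (hp .p8 .n8 cki_8).2
  · exact (hp .p9 .n9 cki_9).2

/-- inverse word -/
def ivW (w : List X) : List X := (w.map iv).reverse

theorem V_ivW (w : List X) : V (ivW w) = (V w)⁻¹ := by
  induction w with
  | nil => simp [ivW, V_nil]
  | cons x w ih =>
    have e : ivW (x :: w) = ivW w ++ [iv x] := by simp [ivW]
    rw [e, V_append, ih, V_single, eX_iv, V_cons, mul_inv_rev]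

/-- commutator word -/
def cmW (u h : List X) : List X := ivW u ++ ivW h ++ ivW u ++ h ++ u ++ ivW h ++ u ++ h

theorem V_cmW (u h : List X) : V (cmW u h) =
    (V u)⁻¹ * ((V h)⁻¹ * V u * V h)⁻¹ * V u * ((V h)⁻¹ * V u * V h) := by
  unfold cmW
  simp only [V_append, V_ivW]
  group

theorem V_eq {w : List X} {p n : X} (h1 : chkW net 15 (w ++ [n]) 1 0 15 = true)
    (h2 : chkW net 15 [p, n] 1 0 15 = true) : V w = eX p := by
  have e1 := V_one h1
  have e2 := V_one h2
  rw [V_append, V_single] at e1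
  rw [V_cons, V_single] at e2
  rw [← mul_left_inj (eX n), e1, e2]

/-! ### points -/

/-- evaluation of a word at a point -/
noncomputable def chkPt (w : List X) (p x : ℕ) : Bool :=
  Nat.beq (appF net w (Nat.shiftLeft 1 p)) (Nat.shiftLeft 1 x)

theorem chkPt_spec {w : List X} {p x : ℕ} (h : chkPt w p x = true) : φ (V w) x = p := by
  have h1 := eqOfBeq h
  rw [appF_eq] at h1
  have h2 := (app_BP hbp w).bit (Nat.shiftLeft 1 p) x
  rw [h1] at h2
  have e : ∀ y : ℕ, Nat.shiftLeft 1 y = 2 ^ y := fun y => by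
    change 1 <<< y = 2 ^ y
    rw [Nat.one_shiftLeft]
  rw [e, e, Nat.testBit_two_pow_self, Nat.testBit_two_pow] at h2
  rw [φ_V]
  have h3 : p = (w.map π).prod x := by simpa using h2.symm
  exact h3.symm

theorem comm_iff (g : G) : g * t = t * g ↔ φ g 0 = 0 := by
  rw [← mem_HS, ← centralizer_t, Subgroup.mem_centralizer_singleton_iff]

/-- `u` is the transposition of the point `x` -/
def IsT (x : ℕ) (u : G) : Prop := ∃ g : G, φ g 0 = x ∧ u = g * t * g⁻¹

theorem IsT.unique {x : ℕ} {u v : G} (hu : IsT x u) (hv : IsT x v) : u = v := by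
  obtain ⟨g, hg, rfl⟩ := hu
  obtain ⟨k, hk, rfl⟩ := hv
  have h1 : φ (k⁻¹ * g) 0 = 0 := by
    rw [map_mul, map_inv, Equiv.Perm.mul_apply, hg, ← hk, inv_app]
  have h2 := (comm_iff _).2 h1
  have h3 : g * t = k * (t * (k⁻¹ * g)) := by rw [← h2]; group
  rw [h3]; group

theorem IsT.conj {x : ℕ} {u : G} (h : IsT x u) (g : G) : IsT (φ g x) (g * u * g⁻¹) := by
  obtain ⟨k, hk, rfl⟩ := h
  refine ⟨g * k, ?_, by group⟩
  rw [map_mul, Equiv.Perm.mul_apply, hk]

theorem IsT.inj {x y : ℕ} {u : G} (hx : IsT x u) (hy : IsT y u) : x = y := by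
  obtain ⟨g, hg, h1⟩ := hx
  obtain ⟨k, hk, h2⟩ := hy
  have h3 : (k⁻¹ * g) * t = t * (k⁻¹ * g) := by
    have : g * t * g⁻¹ = k * t * k⁻¹ := by rw [← h1, ← h2]
    calc (k⁻¹ * g) * t = k⁻¹ * (g * t * g⁻¹) * g := by group
      _ = k⁻¹ * (k * t * k⁻¹) * g := by rw [this]
      _ = t * (k⁻¹ * g) := by group
  have h4 := (comm_iff _).1 h3
  rw [map_mul, map_inv, Equiv.Perm.mul_apply, hg] at h4
  rw [← hk, ← h4, app_inv]

theorem isT_exists {x : ℕ} (hx : x < 31671) : ∃ u, IsT x u := by
  obtain ⟨g, hg⟩ := htr x hx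
  exact ⟨_, g, hg, rfl⟩

theorem isT_zero : IsT 0 t := ⟨1, by rw [map_one]; rfl, by simp⟩

/-- `h` fixes a point iff it commutes with its transposition -/
theorem fix_iff {x : ℕ} {u h : G} (hu : IsT x u) : φ h x = x ↔ h * u = u * h := by
  constructor
  · intro hx
    have h1 := hu.conj h
    rw [hx] at h1
    have h2 := h1.unique hu
    calc h * u = (h * u * h⁻¹) * h := by group
      _ = u * h := by rw [h2]
  · intro hx
    have h1 := hu.conj h
    have h2 : h * u * h⁻¹ = u := by rw [hx]; group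
    rw [h2] at h1
    exact h1.inj hu

theorem isT_word {c : List X} {l : X} {x p : ℕ} {w : List X} (hw : w = c ++ l :: ivW c)
    (hl : IsT x (eX l)) (hp : chkPt c p x = true) : IsT p (V w) := by
  have h1 := hl.conj (V c)
  rw [chkPt_spec hp] at h1
  have e : V w = V c * eX l * (V c)⁻¹ := by
    rw [hw, V_append, V_cons, V_ivW, mul_assoc]
  rw [e]; exact h1

theorem braid_isT {x y : ℕ} {l m : LT} (hm : H35.TCFi23A.mm l m = 3) (hx : IsT x (eX (toX l)))
    (hp : chkPt [toX l, toX m] y x = true) : IsT y (eX (toX m)) := by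
  have h1 := hx.conj (V [toX l, toX m])
  rw [chkPt_spec hp] at h1
  have e : V [toX l, toX m] * eX (toX l) * (V [toX l, toX m])⁻¹ = eX (toX m) := by
    rw [V_cons, V_single]
    have h3 := hpP l m
    rw [hm] at h3
    rw [eX_toX, eX_toX]
    exact (H35.FiKit.braid_eq (sqP l) (sqP m) h3).symm
  rw [e] at h1
  exact h1

end H94.F23
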