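import Mathlib
import Cfsg.Agent.Lib.H94.F23.Core
import Cfsg.Agent.Lib.H94.F23.Words

/-!
# Invariant masks, reachability and fixed points
-/

set_option autoImplicit false
set_option linter.all false
set_option maxRecDepth 10000

namespace H94.F23

open H35.TC H35.Net Cfsg.Spor H35.Fi23Main H35.FiClass23

/-- `h` preserves the mask -/
def Inv (h : G) (M : ℕ) : Prop := ∀ c, M.testBit (φ h c) = M.testBit c

/-- stabiliser of a mask -/
noncomputable def IH (M : ℕ) : Subgroup G where
  carrier := {g | Inv g M}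
  mul_mem' := by
    intro a b ha hb c
    rw [map_mul, Equiv.Perm.mul_apply, ha, hb]
  one_mem' := by intro c; rw [map_one]; rfl
  inv_mem' := by
    intro a ha c
    have h1 := ha ((φ a)⁻¹ c)
    rw [app_inv] at h1
    rw [map_inv]; exact h1.symm

/-- stabiliser of a point -/
noncomputable def PS (b : ℕ) : Subgroup G := (MulAction.stabilizer (Equiv.Perm ℕ) b).comap φ

theorem mem_PS {b : ℕ} {g : G} : g ∈ PS b ↔ φ g b = b := Iff.rfl

/-- generated subgroup -/
noncomputable def C (ws : List (List X)) : Subgroup G := Subgroup.closure {y | ∃ w ∈ ws, y = V w}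

theorem mem_C {ws : List (List X)} {w : List X} (h : w ∈ ws) : V w ∈ C ws :=
  Subgroup.subset_closure ⟨w, h, rfl⟩

theorem C_le {ws : List (List X)} {K : Subgroup G} (h : ∀ w ∈ ws, V w ∈ K) : C ws ≤ K := by
  rw [C, Subgroup.closure_le]
  rintro _ ⟨w, hw, rfl⟩
  exact h w hw

theorem reachG {ws : List (List X)} {n b M : ℕ}
    (h : Nat.beq (reachF net ws n (Nat.shiftLeft 1 b)) M = true) {c : ℕ} (hc : M.testBit c = true) :
    ∃ g ∈ C ws, φ g b = c := by
  have h1 : reachF net ws n (Nat.shiftLeft 1 b) = M := eqOfBeq h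
  have h2 := reachF_orbit hbp (Γ := (C ws).map φ) (ws := ws) (b := b) (n := n)
    (fun w hw => by rw [← φ_V]; exact ⟨V w, mem_C hw, rfl⟩) c (by rw [h1]; exact hc)
  obtain ⟨_, ⟨g, hg, rfl⟩, hgb⟩ := h2
  exact ⟨g, hg, hgb⟩

theorem transG {ws : List (List X)} {n b N : ℕ} (h : chkTrans net ws n N b = true) {c : ℕ} (hc : c < N) :
    ∃ g ∈ C ws, φ g b = c := by
  refine reachG (M := 2 ^ N - 1) h ?_
  rw [Nat.testBit_two_pow_sub_one]
  simpa using hc

theorem closedG {ws : List (List X)} {U : ℕ} (h : chkClosed net ws U = true) : C ws ≤ IH U := by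
  refine C_le fun w hw c => ?_
  rw [φ_V]
  exact closed_of_chk hbp h w hw c

theorem fixG {ws : List (List X)} {bs : List ℕ} (h : chkFixF net ws bs = true) {g : G} (hg : g ∈ C ws)
    {b : ℕ} (hb : b ∈ bs) : φ g b = b := by
  have h1 : C ws ≤ PS b := C_le fun w hw => by
    rw [mem_PS, φ_V]
    exact prod_fix hbp h w hw b hb
  exact h1 hg

theorem presG (g : G) (b : ℕ) : φ g b < 31671 ↔ b < 31671 := pres_all hφ genP H35.NFi23.pres g b

theorem fixHi (g : G) (b : ℕ) (hb : 31671 ≤ b) : φ g b = b := fix_all hφ genP H35.NFi23.fix_hi g b hb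

theorem lt_k (g : G) {b : ℕ} (hb : b < 2 ^ 15) : φ g b < 2 ^ 15 := by
  rcases Nat.lt_or_ge b 31671 with h | h
  · exact lt_trans ((presG g b).2 h) (by norm_num)
  · rw [fixHi g b h]; exact hb

/-! ### fixed points of elements of prime order -/

theorem modfix {p : ℕ} (hp : p.Prime) {h : G} (hh : h ^ p = 1) {M : ℕ} (hI : Inv h M) :
    (¬ p ∣ popc 15 M → ∃ b, b < 2 ^ 15 ∧ M.testBit b = true ∧ φ h b = b) ∧
    (popc 15 M < p → ∀ b, b < 2 ^ 15 → M.testBit b = true → φ h b = b) := by
  classical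
  have : Fact p.Prime := ⟨hp⟩
  let S : Finset ℕ := (Finset.range (2 ^ 15)).filter (fun b => M.testBit b = true)
  have hS : S.card = popc 15 M := popc_spec 15 M
  have hmem : ∀ b, b ∈ S ↔ b < 2 ^ 15 ∧ M.testBit b = true := by
    intro b; simp only [S, Finset.mem_filter, Finset.mem_range]
  have hstab : ∀ b, b ∈ S → φ h b ∈ S := by
    intro b hb
    rw [hmem] at hb ⊢
    exact ⟨lt_k h hb.1, by rw [hI]; exact hb.2⟩
  let f : Function.End {b // b ∈ S} := fun b => ⟨φ h b.1, hstab _ b.2⟩
  have hit : ∀ (n : ℕ) (b : {b // b ∈ S}), ((f ^ n) b).1 = φ (h ^ n) b.1 := by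
    intro n
    induction n with
    | zero => intro b; rw [pow_zero, pow_zero, map_one]; rfl
    | succ n ih =>
      intro b
      have e1 : (f ^ (n + 1)) b = f ((f ^ n) b) := by rw [pow_succ']; rfl
      have e2 : φ (h ^ (n + 1)) b.1 = φ h (φ (h ^ n) b.1) := by
        rw [pow_succ', map_mul, Equiv.Perm.mul_apply]
      rw [e1, e2, ← ih]
  have hf : f ^ p ^ 1 = 1 := by
    rw [pow_one]
    funext b
    apply Subtype.ext
    rw [hit, hh, map_one]; rfl
  have hmod := Equiv.Perm.card_fixedPoints_modEq (f := f) (p := p) (n := 1) hf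
  rw [Fintype.card_coe, hS] at hmod
  constructor
  · intro hnd
    by_contra hne
    apply hnd
    have h0 : Fintype.card f.fixedPoints = 0 := by
      rw [Fintype.card_eq_zero_iff]
      constructor
      rintro ⟨b, hb⟩
      have hb' : f b = b := hb
      have h1 := congrArg Subtype.val hb'
      exact hne ⟨b.1, ((hmem _).1 b.2).1, ((hmem _).1 b.2).2, h1⟩
    rw [h0] at hmod
    exact (Nat.modEq_zero_iff_dvd).1 hmod
  · intro hlt b hb1 hb2
    have hle : Fintype.card f.fixedPoints ≤ popc 15 M := by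
      rw [← hS, ← Fintype.card_coe]
      exact Fintype.card_le_of_injective (fun x : f.fixedPoints => x.1) Subtype.val_injective
    have heq : popc 15 M = Fintype.card f.fixedPoints :=
      Nat.ModEq.eq_of_lt_of_lt hmod hlt (lt_of_le_of_lt hle hlt)
    have huniv : f.fixedPoints = Set.univ := by
      rw [← set_fintype_card_eq_univ_iff, ← heq, Fintype.card_coe, hS]
    have hb : (⟨b, (hmem b).2 ⟨hb1, hb2⟩⟩ : {b // b ∈ S}) ∈ f.fixedPoints := by rw [huniv]; trivial
    exact congrArg Subtype.val (show f _ = _ from hb)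

end H94.F23
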