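import Mathlib
import Cfsg.Agent.Lib.H94.F23.Stab
import Cfsg.Agent.Lib.H94.F23.ChkA
import Cfsg.Agent.Lib.H94.F23.ChkB
import Cfsg.Agent.Lib.H94.F23.ChkC
import Cfsg.Agent.Lib.H94.F23.ChkW0
import Cfsg.Agent.Lib.H94.F23.ChkW1
import Cfsg.Agent.Lib.H94.F23.ChkW2
import Cfsg.Agent.Lib.H94.F23.ChkW3

/-!
# The stabiliser of a set of 324 transpositions is maximal
-/

set_option autoImplicit false
set_option linter.all false
set_option maxRecDepth 10000

namespace H94.F23

open H35.TC H35.Net Cfsg.Spor H35.Fi23Main H35.FiClass23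

/-- the maximal subgroup -/
noncomputable def H : Subgroup G := IH Dm

theorem mem_H {g : G} : g ∈ H ↔ Inv g Dm := Iff.rfl

theorem gH_le : C gH ≤ H := closedG k_cD

/-! ### transpositions of points -/

theorem isT_j : IsT 8006 (eX .j) := by
  have h1 := isT_zero.conj (V ((tw.map toX) ++ [X.j]))
  rw [chkPt_spec (w := (tw.map toX) ++ [X.j]) (p := 8006) (x := 0) k_lj] at h1
  have e0 : V (tw.map toX) = t := by
    unfold V H35.FiClass23.t
    rw [List.map_map]
    congr 1
    apply List.map_congr_left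
    intro x _
    exact eX_toX x
  have e1 : eX .j = gP .j := eX_toX .j
  rw [V_append, V_single, e0, e1, ← H35.FiKit.braid_eq t_sq (sqP .j) t_j] at h1
  rw [e1]; exact h1

theorem isT_g : IsT 8005 (eX .g) := braid_isT (l := .j) (m := .g) rfl isT_j k_lg
theorem isT_f : IsT 8002 (eX .f) := braid_isT (l := .g) (m := .f) rfl isT_g k_lf
theorem isT_e : IsT 8001 (eX .e) := braid_isT (l := .f) (m := .e) rfl isT_f k_le
theorem isT_d : IsT 8000 (eX .d) := braid_isT (l := .e) (m := .d) rfl isT_e k_ld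
theorem isT_c : IsT 8003 (eX .c) := braid_isT (l := .d) (m := .c) rfl isT_d k_lc
theorem isT_b : IsT 8004 (eX .b) := braid_isT (l := .c) (m := .b) rfl isT_c k_lb
theorem isT_a : IsT 11589 (eX .a) := braid_isT (l := .b) (m := .a) rfl isT_b k_la
theorem isT_h : IsT 7999 (eX .h) := braid_isT (l := .d) (m := .h) rfl isT_d k_lh
theorem isT_i : IsT 8007 (eX .i) := braid_isT (l := .h) (m := .i) rfl isT_h k_li

theorem isT_703 : IsT 703 (V T_703) := isT_word (c := c_703) (l := .b) rfl isT_b k_p703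
theorem isT_297 : IsT 297 (V T_297) := isT_word (c := c_297) (l := .b) rfl isT_b k_p297
theorem isT_210 : IsT 210 (V T_210) := isT_word (c := c_210) (l := .b) rfl isT_b k_p210
theorem isT_3846 : IsT 3846 (V T_3846) := isT_word (c := c_3846) (l := .a) rfl isT_a k_p3846
theorem isT_4140 : IsT 4140 (V T_4140) := isT_word (c := c_4140) (l := .b) rfl isT_b k_p4140
theorem isT_107 : IsT 107 (V T_107) := isT_word (c := c_107) (l := .c) rfl isT_c k_p107
theorem isT_3186 : IsT 3186 (V T_3186) := isT_word (c := c_3186) (l := .b) rfl isT_b k_p3186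
theorem isT_4243 : IsT 4243 (V T_4243) := isT_word (c := c_4243) (l := .a) rfl isT_a k_p4243
theorem isT_1 : IsT 1 (V T_1) := isT_word (c := c_1) (l := .b) rfl isT_b k_p1
theorem isT_3560 : IsT 3560 (V T_3560) := isT_word (c := c_3560) (l := .a) rfl isT_a k_p3560
theorem isT_1259 : IsT 1259 (V T_1259) := isT_word (c := c_1259) (l := .b) rfl isT_b k_p1259
theorem isT_1368 : IsT 1368 (V T_1368) := isT_word (c := c_1368) (l := .b) rfl isT_b k_p1368
theorem isT_1396 : IsT 1396 (V T_1396) := isT_word (c := c_1396) (l := .a) rfl isT_a k_p1396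
theorem isT_3011 : IsT 3011 (V T_3011) := isT_word (c := c_3011) (l := .a) rfl isT_a k_p3011
theorem isT_3359 : IsT 3359 (V T_3359) := isT_word (c := c_3359) (l := .a) rfl isT_a k_p3359
theorem isT_3758 : IsT 3758 (V T_3758) := isT_word (c := c_3758) (l := .a) rfl isT_a k_p3758
theorem isT_4861 : IsT 4861 (V T_4861) := isT_word (c := c_4861) (l := .a) rfl isT_a k_p4861
theorem isT_5324 : IsT 5324 (V T_5324) := isT_word (c := c_5324) (l := .a) rfl isT_a k_p5324
theorem isT_6299 : IsT 6299 (V T_6299) := isT_word (c := c_6299) (l := .a) rfl isT_a k_p6299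
theorem isT_6711 : IsT 6711 (V T_6711) := isT_word (c := c_6711) (l := .a) rfl isT_a k_p6711
theorem isT_7424 : IsT 7424 (V T_7424) := isT_word (c := c_7424) (l := .a) rfl isT_a k_p7424
theorem isT_8181 : IsT 8181 (V T_8181) := isT_word (c := c_8181) (l := .a) rfl isT_a k_p8181
theorem isT_9792 : IsT 9792 (V T_9792) := isT_word (c := c_9792) (l := .a) rfl isT_a k_p9792
theorem isT_9795 : IsT 9795 (V T_9795) := isT_word (c := c_9795) (l := .a) rfl isT_a k_p9795
theorem isT_10154 : IsT 10154 (V T_10154) := isT_word (c := c_10154) (l := .a) rfl isT_a k_p10154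
theorem isT_11099 : IsT 11099 (V T_11099) := isT_word (c := c_11099) (l := .a) rfl isT_a k_p11099
theorem isT_11422 : IsT 11422 (V T_11422) := isT_word (c := c_11422) (l := .a) rfl isT_a k_p11422
theorem isT_12285 : IsT 12285 (V T_12285) := isT_word (c := c_12285) (l := .a) rfl isT_a k_p12285
theorem isT_14574 : IsT 14574 (V T_14574) := isT_word (c := c_14574) (l := .a) rfl isT_a k_p14574
theorem isT_18780 : IsT 18780 (V T_18780) := isT_word (c := c_18780) (l := .a) rfl isT_a k_p18780
theorem isT_20105 : IsT 20105 (V T_20105) := isT_word (c := c_20105) (l := .a) rfl isT_a k_p20105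

/-! ### orbits -/

theorem lt_D {c : ℕ} (hc : Dm.testBit c = true) : c < 31671 := by
  obtain ⟨g, _, rfl⟩ := reachG k_D hc
  exact (presG g _).2 (by norm_num)

theorem k_U' : chkFull (Nat.lor (Nat.lor Dm O1m) O2m) 31671 = true := by decide +kernel

theorem cover {c : ℕ} (hc : c < 31671) :
    Dm.testBit c = true ∨ O1m.testBit c = true ∨ O2m.testBit c = true := by
  have h := bit_of_full k_U' hc
  rcases bit_lor h with h | h
  · rcases bit_lor h with h | h
    · exact Or.inl h
    · exact Or.inr (Or.inl h)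
  · exact Or.inr (Or.inr h)

theorem isT_mem_gH {x : ℕ} {u : G} (hx : Dm.testBit x = true) (hu : IsT x u) : u ∈ C gH := by
  obtain ⟨g, hg, hgx⟩ := reachG k_D hx
  have h1 := isT_703.conj g
  rw [hgx] at h1
  rw [hu.unique h1]
  exact mul_mem (mul_mem hg (mem_C (by simp [gH]))) (inv_mem hg)

theorem H_ne_top : H ≠ ⊤ := by
  intro htop
  obtain ⟨g, hg⟩ := htr 703 (by norm_num)
  obtain ⟨k, hk⟩ := htr 1 (by norm_num)
  have h1 : k * g⁻¹ ∈ H := by rw [htop]; trivial
  have h2 := h1 703
  rw [map_mul, map_inv, Equiv.Perm.mul_apply, ← hg, inv_app, hk, hg] at h2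
  have h3 : Dm.testBit 703 = true := by decide +kernel
  have h4 : Dm.testBit 1 = false := by decide +kernel
  rw [h3, h4] at h2
  exact absurd h2 (by simp)

theorem trans_top {K : Subgroup G} {x : ℕ} {u : G} (hu : IsT x u) (huK : u ∈ K)
    (ht : ∀ c, c < 31671 → ∃ g ∈ K, φ g x = c) : K = ⊤ := by
  rw [eq_top_iff, ← genP, Subgroup.closure_le]
  rintro _ ⟨l, rfl⟩
  obtain ⟨c, hc⟩ := isConj_iff.1 (isConj_t l)
  have h1 : IsT (φ c 0) (gP l) := ⟨c, rfl, hc.symm⟩
  obtain ⟨g, hgK, hg⟩ := ht (φ c 0) ((presG c 0).2 (by norm_num))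
  have h2 := hu.conj g
  rw [hg] at h2
  rw [h1.unique h2]
  exact mul_mem (mul_mem hgK huK) (inv_mem hgK)

theorem moved {K : Subgroup G} (hK : ¬ K ≤ H) : ∃ k ∈ K, ∃ c, Dm.testBit c = true ∧ Dm.testBit (φ k c) = false := by
  obtain ⟨k, hk, hkH⟩ := Set.not_subset.1 hK
  have h1 : ¬ Inv k Dm := hkH
  unfold Inv at h1
  push Not at h1
  obtain ⟨c, hc⟩ := h1
  cases hb : Dm.testBit c with
  | true =>
    rw [hb] at hc
    exact ⟨k, hk, c, hb, by simpa using hc⟩
  | false =>
    rw [hb] at hc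
    refine ⟨k⁻¹, inv_mem hk, φ k c, by simpa using hc, ?_⟩
    rw [map_inv, inv_app]; exact hb

theorem coatom : IsCoatom H := by
  refine ⟨H_ne_top, fun K hK => ?_⟩
  have hle : H ≤ K := hK.le
  obtain ⟨k, hk, c, hc, hkc⟩ := moved (K := K) (not_le_of_gt hK)
  have hclt := lt_D hc
  have hdlt : φ k c < 31671 := (presG k c).2 hclt
  obtain ⟨u, hu⟩ := isT_exists hclt
  have huK : u ∈ K := hle (gH_le (isT_mem_gH hc hu))
  have hdT := hu.conj k
  have hdK : k * u * k⁻¹ ∈ K := mul_mem (mul_mem hk huK) (inv_mem hk)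
  rcases cover hdlt with h | h | h
  · rw [hkc] at h; exact absurd h (by simp)
  · obtain ⟨g, hg, hgx⟩ := reachG k_O1 h
    have hgK : g ∈ K := hle (gH_le hg)
    have h2 := hdT.conj g⁻¹
    rw [map_inv, ← hgx, inv_app] at h2
    have h3 : V [X.f] ∈ K := by
      rw [V_single, isT_f.unique h2]
      exact mul_mem (mul_mem (inv_mem hgK) hdK) (inv_mem (inv_mem hgK))
    refine trans_top isT_f (by rw [← V_single]; exact h3) fun c' hc' => ?_
    obtain ⟨g', hg', hgc⟩ := transG k_m1 hc'
    refine ⟨g', (C_le ?_) hg', hgc⟩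
    intro w hw
    rcases List.mem_append.1 hw with hw | hw
    · exact hle (gH_le (mem_C hw))
    · rw [List.mem_singleton] at hw; rw [hw]; exact h3
  · obtain ⟨g, hg, hgx⟩ := reachG k_O2 h
    have hgT : C gT ≤ C gH := C_le fun w hw => mem_C (by
      simp only [gT, gH, List.mem_cons, List.not_mem_nil, or_false] at hw ⊢
      tauto)
    have hgK : g ∈ K := hle (gH_le (hgT hg))
    have h2 := hdT.conj g⁻¹
    rw [map_inv, ← hgx, inv_app] at h2
    have h3 : V T_1 ∈ K := by
      rw [isT_1.unique h2]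
      exact mul_mem (mul_mem (inv_mem hgK) hdK) (inv_mem (inv_mem hgK))
    refine trans_top isT_1 h3 fun c' hc' => ?_
    obtain ⟨g', hg', hgc⟩ := transG k_m2 hc'
    refine ⟨g', (C_le ?_) hg', hgc⟩
    intro w hw
    rcases List.mem_append.1 hw with hw | hw
    · exact hle (gH_le (mem_C hw))
    · rw [List.mem_singleton] at hw; rw [hw]; exact h3

end H94.F23
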