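import Mathlib
import Cfsg.Agent.Lib.H94.F23.Maxl
import Cfsg.Agent.S0144

/-!
# The stabiliser is a {2,3}-group, hence solvable
-/

set_option autoImplicit false
set_option linter.all false
set_option maxRecDepth 10000

namespace H94.F23

open H35.TC H35.Net Cfsg.Spor H35.Fi23Main H35.FiClass23

/-! ### fixed point masks -/

theorem mov_spec {f : ℕ → ℕ} {k : ℕ} {σ : Equiv.Perm ℕ} (hf : BP (2 ^ k) f σ) (n : ℕ) {b : ℕ} (hb : b < 2 ^ k) :
    (movM f k n).testBit b = true ↔ ∃ r < n, (σ b).testBit r ≠ b.testBit r := by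
  have hb' : σ b < 2 ^ k := (hf.lt_iff b).2 hb
  induction n with
  | zero =>
    have e : movM f k 0 = 0 := rfl
    rw [e]; simp
  | succ n ih =>
    have e : movM f k (n + 1) = (movM f k n) ||| (f (ipl n k) ^^^ ipl n k) := rfl
    rw [e, Nat.testBit_or, Nat.testBit_xor, hf.bit, ipl_bit n k _ hb', ipl_bit n k _ hb, Bool.or_eq_true]
    constructor
    · rintro (h | h)
      · obtain ⟨r, hr, h⟩ := ih.1 h
        exact ⟨r, by omega, h⟩
      · exact ⟨n, by omega, by simpa using h⟩
    · rintro ⟨r, hr, h⟩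
      rcases Nat.lt_or_ge r n with h1 | h1
      · exact Or.inl (ih.2 ⟨r, h1, h⟩)
      · have : r = n := by omega
        subst this
        exact Or.inr (by simpa using h)

theorem mov_iff {f : ℕ → ℕ} {k : ℕ} {σ : Equiv.Perm ℕ} (hf : BP (2 ^ k) f σ) {b : ℕ} (hb : b < 2 ^ k) :
    (movM f k k).testBit b = true ↔ σ b ≠ b := by
  rw [mov_spec hf k hb]
  have hb' : σ b < 2 ^ k := (hf.lt_iff b).2 hb
  constructor
  · rintro ⟨r, _, h⟩ he
    rw [he] at h; exact h rfl
  · intro hne
    by_contra hc
    push Not at hc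
    apply hne
    apply Nat.eq_of_testBit_eq
    intro r
    rcases Nat.lt_or_ge r k with hr | hr
    · exact hc r hr
    · rw [Nat.testBit_lt_two_pow (lt_of_lt_of_le hb' (Nat.pow_le_pow_right (by norm_num) hr)),
        Nat.testBit_lt_two_pow (lt_of_lt_of_le hb (Nat.pow_le_pow_right (by norm_num) hr))]

theorem appF_BP (w : List X) : BP (2 ^ 15) (appF net w) (φ (V w)) := by
  have e : appF net w = app net w := funext fun W => appF_eq net w W
  rw [e, φ_V]
  exact app_BP hbp w

theorem fixIn_bit {w : List X} {D M : ℕ} (h : Nat.beq (fixIn (appF net w) 15 D) M = true) {b : ℕ}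
    (hb : b < 2 ^ 15) : M.testBit b = true ↔ D.testBit b = true ∧ φ (V w) b = b := by
  have h1 : fixIn (appF net w) 15 D = M := eqOfBeq h
  have h2 : fixIn (appF net w) 15 D = D ^^^ (D &&& movM (appF net w) 15 15) := rfl
  have h3 := mov_iff (appF_BP w) hb
  rw [← h1, h2, Nat.testBit_xor, Nat.testBit_and]
  cases hD : D.testBit b <;> cases hm : (movM (appF net w) 15 15).testBit b
  · simp
  · simp
  · rw [hm] at h3
    have h4 : φ (V w) b = b := by
      by_contra hc
      exact absurd (h3.2 hc) (by simp)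
    simp [h4]
  · have h4 := h3.1 hm
    simp [h4]

/-- fixed point masks are invariant -/
theorem inv_fixIn {w : List X} {D M x : ℕ} (h : Nat.beq (fixIn (appF net w) 15 D) M = true)
    (hx : IsT x (V w)) {g : G} (hD : Inv g D) (hg : φ g x = x) : Inv g M := by
  intro c
  rcases Nat.lt_or_ge c (2 ^ 15) with hc | hc
  · have h1 := fixIn_bit h hc
    have h2 := fixIn_bit h (lt_k g hc)
    have hcomm := (fix_iff hx).1 hg
    have h3 : φ (V w) (φ g c) = φ g c ↔ φ (V w) c = c := by
      have e : φ (V w) (φ g c) = φ g (φ (V w) c) := by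
        rw [← Equiv.Perm.mul_apply, ← map_mul, ← hcomm, map_mul, Equiv.Perm.mul_apply]
      rw [e]
      exact (φ g).injective.eq_iff
    rw [h3, hD c] at h2
    rw [Bool.eq_iff_iff]
    exact h2.trans h1.symm
  · rw [fixHi g c (le_trans (by norm_num) hc)]

theorem inv_xor {A B M : ℕ} (h : Nat.beq (Nat.xor A B) M = true) {g : G} (hA : Inv g A) (hB : Inv g B) :
    Inv g M := by
  have h1 : A ^^^ B = M := eqOfBeq h
  intro c
  rw [← h1, Nat.testBit_xor, Nat.testBit_xor, hA c, hB c]

/-! ### the orbit of 19683 points is invariant -/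

theorem k_cO1' : chkClosed net gH O1m = true := by decide +kernel
theorem k_d2 : Nat.beq (Nat.land O2m Dm) 0 = true := by decide +kernel
theorem k_d1 : Nat.beq (Nat.land O2m O1m) 0 = true := by decide +kernel

theorem land_zero {A B c : ℕ} (h : Nat.beq (Nat.land A B) 0 = true) (hA : A.testBit c = true) :
    B.testBit c = false := by
  have h1 : A &&& B = 0 := eqOfBeq h
  have h2 : (A &&& B).testBit c = false := by rw [h1]; simp
  rw [Nat.testBit_and, hA] at h2
  simpa using h2

theorem O2_lt {c : ℕ} (hc : O2m.testBit c = true) : c < 31671 := by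
  obtain ⟨g, _, rfl⟩ := reachG k_O2 hc
  exact (presG g _).2 (by norm_num)

theorem O2_iff {c : ℕ} : O2m.testBit c = true ↔ c < 31671 ∧ Dm.testBit c = false ∧ O1m.testBit c = false := by
  constructor
  · intro h
    exact ⟨O2_lt h, land_zero k_d2 h, land_zero k_d1 h⟩
  · rintro ⟨h1, h2, h3⟩
    rcases cover h1 with h | h | h
    · rw [h2] at h; exact absurd h (by simp)
    · rw [h3] at h; exact absurd h (by simp)
    · exact h

/-- the subgroup generated by the transpositions in the set -/
def N0 : Subgroup G := Subgroup.closure {u | ∃ x, Dm.testBit x = true ∧ IsT x u}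

theorem N0_le : N0 ≤ C gH := by
  rw [N0, Subgroup.closure_le]
  rintro u ⟨x, hx, hu⟩
  exact isT_mem_gH hx hu

theorem N0_conj {h n : G} (hh : h ∈ H) (hn : n ∈ N0) : h * n * h⁻¹ ∈ N0 := by
  have h1 : N0 ≤ N0.comap (MulAut.conj h).toMonoidHom := by
    conv_lhs => rw [N0]
    rw [Subgroup.closure_le]
    rintro u ⟨x, hx, hu⟩
    refine Subgroup.subset_closure ⟨φ h x, ?_, hu.conj h⟩
    rw [hh x]; exact hx
  exact h1 hn

theorem gT_le : C gT ≤ N0 := by
  refine C_le fun w hw => ?_
  simp only [gT, List.mem_cons, List.not_mem_nil, or_false] at hw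
  rcases hw with rfl | rfl | rfl | rfl | rfl
  · exact Subgroup.subset_closure ⟨703, by decide +kernel, isT_703⟩
  · exact Subgroup.subset_closure ⟨297, by decide +kernel, isT_297⟩
  · exact Subgroup.subset_closure ⟨210, by decide +kernel, isT_210⟩
  · exact Subgroup.subset_closure ⟨3846, by decide +kernel, isT_3846⟩
  · exact Subgroup.subset_closure ⟨4140, by decide +kernel, isT_4140⟩

theorem N0_O1 {n : G} (hn : n ∈ N0) : Inv n O1m := closedG k_cO1' (N0_le hn)

theorem not_O1 {h : G} (hh : h ∈ H) : O1m.testBit (φ h 1) = false := by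
  by_contra hc
  have hc : O1m.testBit (φ h 1) = true := by simpa using hc
  have key : ∀ c, O2m.testBit c = true → O1m.testBit (φ h c) = true := by
    intro c hc2
    obtain ⟨n, hn, rfl⟩ := reachG k_O2 hc2
    have h1 := N0_O1 (N0_conj hh (gT_le hn)) (φ h 1)
    rw [map_mul, map_mul, Equiv.Perm.mul_apply, Equiv.Perm.mul_apply, map_inv, inv_app, hc] at h1
    exact h1
  have h1 := eqOfBeq k_pO2
  have h2 := eqOfBeq k_pO1
  rw [← popc_spec] at h1 h2
  have h3 : ((Finset.range (2 ^ 15)).filter (fun b => O2m.testBit b = true)).card ≤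
      ((Finset.range (2 ^ 15)).filter (fun b => O1m.testBit b = true)).card := by
    apply Finset.card_le_card_of_injOn (fun b => φ h b)
    · intro b hb
      simp only [Finset.coe_filter, Finset.mem_range, Set.mem_setOf_eq] at hb ⊢
      exact ⟨lt_k h hb.1, key b hb.2⟩
    · intro a _ b _ hab
      exact (φ h).injective hab
  rw [h1, h2] at h3
  omega

theorem O2_imp {h : G} (hh : h ∈ H) {c : ℕ} (hc : O2m.testBit c = true) : O2m.testBit (φ h c) = true := by
  rw [O2_iff]
  refine ⟨(presG h c).2 (O2_lt hc), by rw [hh c]; exact (O2_iff.1 hc).2.1, ?_⟩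
  by_contra h1
  have h1 : O1m.testBit (φ h c) = true := by simpa using h1
  obtain ⟨n, hn, rfl⟩ := reachG k_O2 hc
  have h2 := N0_O1 (N0_conj hh (inv_mem (gT_le hn))) (φ h (φ n 1))
  rw [map_mul, map_mul, Equiv.Perm.mul_apply, Equiv.Perm.mul_apply, map_inv, map_inv, inv_app, inv_app, h1] at h2
  rw [not_O1 hh] at h2
  exact absurd h2 (by simp)

theorem inv_O2 {h : G} (hh : h ∈ H) : Inv h O2m := by
  intro c
  rw [Bool.eq_iff_iff]
  constructor
  · intro h1
    have h2 := O2_imp (inv_mem hh) h1
    rwa [map_inv, inv_app] at h2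
  · exact O2_imp hh

/-! ### no elements of prime order at least 5 -/

/-- there is no element of prime order at least 5 fixing the points of `B` -/
def NoElt (B : List ℕ) : Prop :=
  ∀ p : ℕ, p.Prime → 5 ≤ p → ∀ h ∈ H, h ^ p = 1 → (∀ x ∈ B, φ h x = x) → h = 1

theorem nd {p : ℕ} (hp : p.Prime) (h5 : 5 ≤ p) (a b : ℕ) : ¬ p ∣ 2 ^ a * 3 ^ b := by
  intro h
  rcases (Nat.Prime.dvd_mul hp).1 h with h | h
  · have := Nat.le_of_dvd (by norm_num) (hp.dvd_of_dvd_pow h)
    omega
  · have := Nat.le_of_dvd (by norm_num) (hp.dvd_of_dvd_pow h)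
    omega

theorem step {B : List ℕ} {ws : List (List X)} {n M b : ℕ}
    (hM : ∀ p : ℕ, p.Prime → 5 ≤ p → ¬ p ∣ popc 15 M)
    (hinv : ∀ h ∈ H, (∀ x ∈ B, φ h x = x) → Inv h M)
    (hcl : C ws ≤ H) (hfx : ∀ g ∈ C ws, ∀ x ∈ B, φ g x = x)
    (hr : Nat.beq (reachF net ws n (Nat.shiftLeft 1 b)) M = true)
    (hn : NoElt (b :: B)) : NoElt B := by
  intro p hp h5 h hh hhp hB
  obtain ⟨c, _, hcM, hc⟩ := (modfix hp hhp (hinv h hh hB)).1 (hM p hp h5)
  obtain ⟨g, hg, rfl⟩ := reachG hr hcM
  have h1 : g⁻¹ * h * g = 1 := by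
    refine hn p hp h5 _ (mul_mem (mul_mem (inv_mem (hcl hg)) hh) (hcl hg)) ?_ ?_
    · have e := conj_pow (i := p) (a := g⁻¹) (b := h)
      rw [inv_inv] at e
      rw [e, hhp]; group
    · intro x hx
      rw [map_mul, map_mul, Equiv.Perm.mul_apply, Equiv.Perm.mul_apply, map_inv]
      rcases List.mem_cons.1 hx with rfl | hx
      · rw [hc, inv_app]
      · rw [hfx g hg x hx, hB x hx]
        have h2 := hfx g hg x hx
        conv_lhs => rw [← h2]
        rw [inv_app]
  calc h = g * (g⁻¹ * h * g) * g⁻¹ := by group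
    _ = 1 := by rw [h1]; group

theorem fixreach {ws : List (List X)} {n b M : ℕ} {h : G}
    (hr : Nat.beq (reachF net ws n (Nat.shiftLeft 1 b)) M = true)
    (hcm : ∀ w ∈ ws, h * V w = V w * h) (hb : φ h b = b) {c : ℕ} (hc : M.testBit c = true) : φ h c = c := by
  obtain ⟨g, hg, rfl⟩ := reachG hr hc
  have h1 : C ws ≤ Subgroup.centralizer {h} := C_le fun w hw => by
    rw [Subgroup.mem_centralizer_singleton_iff]; exact (hcm w hw).symm
  have h2 := Subgroup.mem_centralizer_singleton_iff.1 (h1 hg)
  rw [← Equiv.Perm.mul_apply, ← map_mul, ← h2, map_mul, Equiv.Perm.mul_apply, hb]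

theorem comm_T {x : ℕ} {w : List X} {h : G} (hx : IsT x (V w)) (hf : φ h x = x) : h * V w = V w * h :=
  (fix_iff hx).1 hf

theorem bit_shl {w b : ℕ} (h : (Nat.shiftLeft 1 w).testBit b = true) : b = w := by
  have h' : (1 <<< w).testBit b = true := h
  rw [Nat.one_shiftLeft, Nat.testBit_two_pow] at h'
  have h2 : w = b := by simpa using h'
  exact h2.symm

theorem M24_cases {b : ℕ} (h : M24m.testBit b = true) : b = 1259 ∨ b = 1368 ∨ b = 1396 ∨ b = 3011 ∨ b = 3186 ∨ b = 3359 ∨ b = 3758 ∨ b = 4140 ∨ b = 4243 ∨ b = 4861 ∨ b = 5324 ∨ b = 6299 ∨ b = 6711 ∨ b = 7424 ∨ b = 8181 ∨ b = 9792 ∨ b = 9795 ∨ b = 10154 ∨ b = 11099 ∨ b = 11422 ∨ b = 12285 ∨ b = 14574 ∨ b = 18780 ∨ b = 20105 := by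
  have h1 := eqOfBeq k_orM24
  rw [← h1] at h
  rcases bit_lor h with h | h
  swap
  · have := bit_shl h; subst this; decide
  rcases bit_lor h with h | h
  swap
  · have := bit_shl h; subst this; decide
  rcases bit_lor h with h | h
  swap
  · have := bit_shl h; subst this; decide
  rcases bit_lor h with h | h
  swap
  · have := bit_shl h; subst this; decide
  rcases bit_lor h with h | h
  swap
  · have := bit_shl h; subst this; decide
  rcases bit_lor h with h | h
  swap
  · have := bit_shl h; subst this; decide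
  rcases bit_lor h with h | h
  swap
  · have := bit_shl h; subst this; decide
  rcases bit_lor h with h | h
  swap
  · have := bit_shl h; subst this; decide
  rcases bit_lor h with h | h
  swap
  · have := bit_shl h; subst this; decide
  rcases bit_lor h with h | h
  swap
  · have := bit_shl h; subst this; decide
  rcases bit_lor h with h | h
  swap
  · have := bit_shl h; subst this; decide
  rcases bit_lor h with h | h
  swap
  · have := bit_shl h; subst this; decide
  rcases bit_lor h with h | h
  swap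
  · have := bit_shl h; subst this; decide
  rcases bit_lor h with h | h
  swap
  · have := bit_shl h; subst this; decide
  rcases bit_lor h with h | h
  swap
  · have := bit_shl h; subst this; decide
  rcases bit_lor h with h | h
  swap
  · have := bit_shl h; subst this; decide
  rcases bit_lor h with h | h
  swap
  · have := bit_shl h; subst this; decide
  rcases bit_lor h with h | h
  swap
  · have := bit_shl h; subst this; decide
  rcases bit_lor h with h | h
  swap
  · have := bit_shl h; subst this; decide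
  rcases bit_lor h with h | h
  swap
  · have := bit_shl h; subst this; decide
  rcases bit_lor h with h | h
  swap
  · have := bit_shl h; subst this; decide
  rcases bit_lor h with h | h
  swap
  · have := bit_shl h; subst this; decide
  rcases bit_lor h with h | h
  swap
  · have := bit_shl h; subst this; decide
  have := bit_shl h; subst this; decide

end H94.F23
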