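import Mathlib
import Cfsg.Agent.Lib.H94.F23.Solv

/-!
# The stabiliser is a {2,3}-group, hence solvable; its ninth derived subgroup is nontrivial
-/

set_option autoImplicit false
set_option linter.all false
set_option maxRecDepth 10000

namespace H94.F23

open H35.TC H35.Net Cfsg.Spor H35.Fi23Main H35.FiClass23

theorem ndp {p M n a b : ℕ} (hp : p.Prime) (h5 : 5 ≤ p) (h : Nat.beq (popc 15 M) n = true)
    (hn : n = 2 ^ a * 3 ^ b) : ¬ p ∣ popc 15 M := by
  have h1 : popc 15 M = n := eqOfBeq h
  rw [h1, hn]
  exact nd hp h5 a b

theorem all4 {p M : ℕ} (hp : p.Prime) (h5 : 5 ≤ p) (h : Nat.beq (popc 15 M) 4 = true) {g : G}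
    (hg : g ^ p = 1) (hI : Inv g M) {b : ℕ} (hb : b < 2 ^ 15) (hM : M.testBit b = true) : φ g b = b := by
  have h1 : popc 15 M = 4 := eqOfBeq h
  exact (modfix hp hg hI).2 (by rw [h1]; omega) b hb hM

theorem lt_M36 {c : ℕ} (hc : M36m.testBit c = true) : c < 31671 := by
  obtain ⟨g, _, rfl⟩ := reachG k_rB hc
  exact (presG g _).2 (by norm_num)

theorem inv_M36 {h : G} (hh : h ∈ H) (h1 : φ h 1 = 1) : Inv h M36m := inv_fixIn k_M36 isT_1 hh h1

theorem inv_B0 {h : G} (hh : h ∈ H) (h1 : φ h 1 = 1) (h2 : φ h 107 = 107) : Inv h B0m :=
  inv_fixIn k_B0 isT_107 (inv_M36 hh h1) h2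

theorem inv_M32 {h : G} (hh : h ∈ H) (h1 : φ h 1 = 1) (h2 : φ h 107 = 107) : Inv h M32m :=
  inv_xor k_M32 (inv_M36 hh h1) (inv_B0 hh h1 h2)

theorem noElt3 : NoElt [3846, 107, 1] := by
  intro p hp h5 h hh hhp hB
  have f1 : φ h 1 = 1 := hB 1 (by simp)
  have f2 : φ h 107 = 107 := hB 107 (by simp)
  have f3 : φ h 3846 = 3846 := hB 3846 (by simp)
  have i36 := inv_M36 hh f1
  have iB0 := inv_B0 hh f1 f2
  have i32 := inv_M32 hh f1 f2
  have f4 : φ h 210 = 210 := all4 hp h5 k_pB0m hhp iB0 (by norm_num) (by decide +kernel)
  have iB4 : Inv h B4m := inv_fixIn k_B4 isT_3846 i36 f3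
  have c3 := comm_T isT_3846 f3
  have f5 : φ h 3560 = 3560 := by
    have e := chkPt_spec (w := T_3846) (p := 107) (x := 3560) k_b8
    have e2 : φ (V T_3846) (φ h 3560) = 107 := by
      rw [← Equiv.Perm.mul_apply, ← map_mul, ← c3, map_mul, Equiv.Perm.mul_apply, e, f2]
    exact (φ (V T_3846)).injective (e2.trans e.symm)
  have iB8 : Inv h B8m := inv_fixIn k_B8 isT_3560 i36 f5
  have i24 : Inv h M24m := by
    have e : Nat.beq (Nat.xor (Nat.xor M32m B4m) B8m) M24m = true := k_M24
    have e1 : Inv h (Nat.xor M32m B4m) := inv_xor (Nat.beq_refl _) i32 iB4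
    exact inv_xor e e1 iB8
  have c0 := comm_T isT_107 f2
  have c1 := comm_T isT_210 f4
  obtain ⟨w, _, hwM, hw⟩ := (modfix hp hhp i24).1 (ndp hp h5 k_pM24m (a := 3) (b := 1) (by norm_num))
  have f36 : ∀ c, M36m.testBit c = true → φ h c = c := by
    intro c hc
    rcases M24_cases hwM with rfl | rfl | rfl | rfl | rfl | rfl | rfl | rfl | rfl | rfl | rfl | rfl | rfl | rfl | rfl | rfl | rfl | rfl | rfl | rfl | rfl | rfl | rfl | rfl
    · refine fixreach k_w1259 ?_ hw hc
      intro v hv
      simp only [List.mem_cons, List.not_mem_nil, or_false] at hv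
      rcases hv with rfl | rfl | rfl | rfl
      · exact c0
      · exact c1
      · exact c3
      · exact comm_T isT_1259 hw
    · refine fixreach k_w1368 ?_ hw hc
      intro v hv
      simp only [List.mem_cons, List.not_mem_nil, or_false] at hv
      rcases hv with rfl | rfl | rfl | rfl
      · exact c0
      · exact c1
      · exact c3
      · exact comm_T isT_1368 hw
    · refine fixreach k_w1396 ?_ hw hc
      intro v hv
      simp only [List.mem_cons, List.not_mem_nil, or_false] at hv
      rcases hv with rfl | rfl | rfl | rfl
      · exact c0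
      · exact c1
      · exact c3
      · exact comm_T isT_1396 hw
    · refine fixreach k_w3011 ?_ hw hc
      intro v hv
      simp only [List.mem_cons, List.not_mem_nil, or_false] at hv
      rcases hv with rfl | rfl | rfl | rfl
      · exact c0
      · exact c1
      · exact c3
      · exact comm_T isT_3011 hw
    · refine fixreach k_w3186 ?_ hw hc
      intro v hv
      simp only [List.mem_cons, List.not_mem_nil, or_false] at hv
      rcases hv with rfl | rfl | rfl | rfl
      · exact c0
      · exact c1
      · exact c3
      · exact comm_T isT_3186 hw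
    · refine fixreach k_w3359 ?_ hw hc
      intro v hv
      simp only [List.mem_cons, List.not_mem_nil, or_false] at hv
      rcases hv with rfl | rfl | rfl | rfl
      · exact c0
      · exact c1
      · exact c3
      · exact comm_T isT_3359 hw
    · refine fixreach k_w3758 ?_ hw hc
      intro v hv
      simp only [List.mem_cons, List.not_mem_nil, or_false] at hv
      rcases hv with rfl | rfl | rfl | rfl
      · exact c0
      · exact c1
      · exact c3
      · exact comm_T isT_3758 hw
    · refine fixreach k_w4140 ?_ hw hc
      intro v hv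
      simp only [List.mem_cons, List.not_mem_nil, or_false] at hv
      rcases hv with rfl | rfl | rfl | rfl
      · exact c0
      · exact c1
      · exact c3
      · exact comm_T isT_4140 hw
    · refine fixreach k_w4243 ?_ hw hc
      intro v hv
      simp only [List.mem_cons, List.not_mem_nil, or_false] at hv
      rcases hv with rfl | rfl | rfl | rfl
      · exact c0
      · exact c1
      · exact c3
      · exact comm_T isT_4243 hw
    · refine fixreach k_w4861 ?_ hw hc
      intro v hv
      simp only [List.mem_cons, List.not_mem_nil, or_false] at hv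
      rcases hv with rfl | rfl | rfl | rfl
      · exact c0
      · exact c1
      · exact c3
      · exact comm_T isT_4861 hw
    · refine fixreach k_w5324 ?_ hw hc
      intro v hv
      simp only [List.mem_cons, List.not_mem_nil, or_false] at hv
      rcases hv with rfl | rfl | rfl | rfl
      · exact c0
      · exact c1
      · exact c3
      · exact comm_T isT_5324 hw
    · refine fixreach k_w6299 ?_ hw hc
      intro v hv
      simp only [List.mem_cons, List.not_mem_nil, or_false] at hv
      rcases hv with rfl | rfl | rfl | rfl
      · exact c0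
      · exact c1
      · exact c3
      · exact comm_T isT_6299 hw
    · refine fixreach k_w6711 ?_ hw hc
      intro v hv
      simp only [List.mem_cons, List.not_mem_nil, or_false] at hv
      rcases hv with rfl | rfl | rfl | rfl
      · exact c0
      · exact c1
      · exact c3
      · exact comm_T isT_6711 hw
    · refine fixreach k_w7424 ?_ hw hc
      intro v hv
      simp only [List.mem_cons, List.not_mem_nil, or_false] at hv
      rcases hv with rfl | rfl | rfl | rfl
      · exact c0
      · exact c1
      · exact c3
      · exact comm_T isT_7424 hw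
    · refine fixreach k_w8181 ?_ hw hc
      intro v hv
      simp only [List.mem_cons, List.not_mem_nil, or_false] at hv
      rcases hv with rfl | rfl | rfl | rfl
      · exact c0
      · exact c1
      · exact c3
      · exact comm_T isT_8181 hw
    · refine fixreach k_w9792 ?_ hw hc
      intro v hv
      simp only [List.mem_cons, List.not_mem_nil, or_false] at hv
      rcases hv with rfl | rfl | rfl | rfl
      · exact c0
      · exact c1
      · exact c3
      · exact comm_T isT_9792 hw
    · refine fixreach k_w9795 ?_ hw hc
      intro v hv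
      simp only [List.mem_cons, List.not_mem_nil, or_false] at hv
      rcases hv with rfl | rfl | rfl | rfl
      · exact c0
      · exact c1
      · exact c3
      · exact comm_T isT_9795 hw
    · refine fixreach k_w10154 ?_ hw hc
      intro v hv
      simp only [List.mem_cons, List.not_mem_nil, or_false] at hv
      rcases hv with rfl | rfl | rfl | rfl
      · exact c0
      · exact c1
      · exact c3
      · exact comm_T isT_10154 hw
    · refine fixreach k_w11099 ?_ hw hc
      intro v hv
      simp only [List.mem_cons, List.not_mem_nil, or_false] at hv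
      rcases hv with rfl | rfl | rfl | rfl
      · exact c0
      · exact c1
      · exact c3
      · exact comm_T isT_11099 hw
    · refine fixreach k_w11422 ?_ hw hc
      intro v hv
      simp only [List.mem_cons, List.not_mem_nil, or_false] at hv
      rcases hv with rfl | rfl | rfl | rfl
      · exact c0
      · exact c1
      · exact c3
      · exact comm_T isT_11422 hw
    · refine fixreach k_w12285 ?_ hw hc
      intro v hv
      simp only [List.mem_cons, List.not_mem_nil, or_false] at hv
      rcases hv with rfl | rfl | rfl | rfl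
      · exact c0
      · exact c1
      · exact c3
      · exact comm_T isT_12285 hw
    · refine fixreach k_w14574 ?_ hw hc
      intro v hv
      simp only [List.mem_cons, List.not_mem_nil, or_false] at hv
      rcases hv with rfl | rfl | rfl | rfl
      · exact c0
      · exact c1
      · exact c3
      · exact comm_T isT_14574 hw
    · refine fixreach k_w18780 ?_ hw hc
      intro v hv
      simp only [List.mem_cons, List.not_mem_nil, or_false] at hv
      rcases hv with rfl | rfl | rfl | rfl
      · exact c0
      · exact c1
      · exact c3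
      · exact comm_T isT_18780 hw
    · refine fixreach k_w20105 ?_ hw hc
      intro v hv
      simp only [List.mem_cons, List.not_mem_nil, or_false] at hv
      rcases hv with rfl | rfl | rfl | rfl
      · exact c0
      · exact c1
      · exact c3
      · exact comm_T isT_20105 hw
  have c4 := comm_T isT_4140 (f36 4140 (by decide +kernel))
  have cB : ∀ v ∈ wsB, h * V v = V v * h := by
    intro v hv
    simp only [wsB, List.mem_cons, List.not_mem_nil, or_false] at hv
    rcases hv with rfl | rfl | rfl | rfl
    · exact c1
    · exact c0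
    · exact c3
    · exact c4
  have i288 : Inv h M288m := inv_xor k_M288 hh i36
  obtain ⟨c, _, hcM, hc⟩ := (modfix hp hhp i288).1 (ndp hp h5 k_pM288m (a := 5) (b := 2) (by norm_num))
  obtain ⟨g, hg, rfl⟩ := reachG k_rE hcM
  have hgc : h * g = g * h := by
    have h1 : C wsB ≤ Subgroup.centralizer {h} := C_le fun w hw => by
      rw [Subgroup.mem_centralizer_singleton_iff]; exact (cB w hw).symm
    exact (Subgroup.mem_centralizer_singleton_iff.1 (h1 hg)).symm
  have f703 : φ h 703 = 703 := by
    rw [← Equiv.Perm.mul_apply, ← map_mul, hgc, map_mul, Equiv.Perm.mul_apply] at hc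
    exact (φ g).injective hc
  have cF : C (wsB ++ [T_1, T_703]) ≤ Subgroup.centralizer {h} := C_le fun w hw => by
    rw [Subgroup.mem_centralizer_singleton_iff]
    rcases List.mem_append.1 hw with hw | hw
    · exact (cB w hw).symm
    · simp only [List.mem_cons, List.not_mem_nil, or_false] at hw
      rcases hw with rfl | rfl
      · exact (comm_T isT_1 f1).symm
      · exact (comm_T isT_703 f703).symm
  apply card_inj.2
  rw [map_one]
  ext x
  change φ h x = x
  rcases Nat.lt_or_ge x 31671 with hx | hx
  · obtain ⟨k, hk, rfl⟩ := transG k_rF hx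
    have h2 := Subgroup.mem_centralizer_singleton_iff.1 (cF hk)
    rw [← Equiv.Perm.mul_apply, ← map_mul, ← h2, map_mul, Equiv.Perm.mul_apply, f1]
  · exact fixHi h x hx

theorem noElt2 : NoElt [107, 1] := by
  refine step (ws := wsC) (M := M32m) (fun p hp h5 => ndp hp h5 k_pM32m (a := 5) (b := 0) (by norm_num)) ?_
    (closedG k_cC) (fun g hg x hx => fixG k_fC hg hx) k_rC noElt3
  intro h hh hB
  exact inv_M32 hh (hB 1 (by simp)) (hB 107 (by simp))

theorem noElt1 : NoElt [1] := by
  refine step (ws := wsB) (M := M36m) (fun p hp h5 => ndp hp h5 k_pM36m (a := 2) (b := 2) (by norm_num)) ?_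
    (closedG k_cB) (fun g hg x hx => fixG k_fB hg hx) k_rB noElt2
  intro h hh hB
  exact inv_M36 hh (hB 1 (by simp))

theorem noElt0 : NoElt [] := by
  refine step (ws := gT) (M := O2m) (fun p hp h5 => ndp hp h5 k_pO2 (a := 0) (b := 9) (by norm_num)) ?_
    (le_trans (le_trans gT_le N0_le) gH_le) (fun g hg x hx => absurd hx (by simp)) k_O2 noElt1
  intro h hh _
  exact inv_O2 hh

theorem card_H : ∃ a b : ℕ, Nat.card H = 2 ^ a * 3 ^ b := by
  have := fin
  have hpos : Nat.card H ≠ 0 := Nat.card_pos.ne'
  have hpr : ∀ p : ℕ, p.Prime → p ∣ Nat.card H → p = 2 ∨ p = 3 := by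
    intro p hp hd
    by_contra hc
    have h5 : 5 ≤ p := by
      have h2 := hp.two_le
      have h4 : p ≠ 4 := by rintro rfl; revert hp; decide
      omega
    have : Fact p.Prime := ⟨hp⟩
    obtain ⟨x, hx⟩ := exists_prime_orderOf_dvd_card' (G := H) p hd
    have h1 : (x : G) ^ p = 1 := by
      rw [← hx, ← Subgroup.coe_pow, pow_orderOf_eq_one]; rfl
    have h3 := noElt0 p hp h5 x.1 x.2 h1 (by simp)
    have h4 : x = 1 := Subtype.ext h3
    rw [h4, orderOf_one] at hx
    exact hp.one_lt.ne hx
  refine ⟨(Nat.card H).factorization 2, (Nat.card H).factorization 3, ?_⟩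
  have h1 : (Nat.card H).primeFactors ⊆ {2, 3} := by
    intro p hp
    rw [Nat.mem_primeFactors] at hp
    simpa using hpr p hp.1 hp.2.1
  conv_lhs => rw [← Nat.factorization_prod_pow_eq_self hpos]
  rw [Finsupp.prod_of_support_subset _ (s := {2, 3}) (by simpa using h1) _ (by simp)]
  simp

theorem solvable_H : Group.IsSolvable H := by
  have := fin
  obtain ⟨a, b, h⟩ := card_H
  exact Cfsg.Agent.S0144.result 2 3 a b (by norm_num) (by norm_num) h

end H94.F23
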