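import Mathlib
import Cfsg.Agent.Lib.H94.F23.NoElt

/-!
# The ninth derived subgroup of the maximal subgroup is nontrivial
-/

set_option autoImplicit false
set_option linter.all false
set_option maxRecDepth 100000

namespace H94.F23

open H35.TC H35.Net Cfsg.Spor H35.Fi23Main H35.FiClass23
open scoped commutatorElement

/-- word -/
def uw : List X := T_4140 ++ [.p1]
/-- word -/
def hw_0 : List X := T_210 ++ [.p0]
/-- word -/
def hw_1 : List X := [.p0]
/-- word -/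
def hw_2 : List X := [.p0] ++ T_297
/-- word -/
def hw_3 : List X := T_107
/-- word -/
def hw_4 : List X := [.p1] ++ T_4243 ++ T_3846
/-- word -/
def hw_5 : List X := T_4243 ++ T_3186
/-- word -/
def hw_6 : List X := T_210 ++ [.p0]
/-- word -/
def hw_7 : List X := [.p1] ++ [.p0]
/-- word -/
def hw_8 : List X := T_3186 ++ T_4243
/-- words -/
def hws : List (List X) := [uw, hw_0, hw_1, hw_2, hw_3, hw_4, hw_5, hw_6, hw_7, hw_8]
theorem k_hws : chkClosed net hws Dm = true := by decide +kernel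
theorem e_0 : wd_2 = cmW uw hw_0 := rfl
theorem e_1 : wd_3 = cmW [.p2] hw_1 := rfl
theorem e_2 : wd_4 = cmW [.p3] hw_2 := rfl
theorem e_3 : wd_5 = cmW [.p4] hw_3 := rfl
theorem e_4 : wd_6 = cmW [.p5] hw_4 := rfl
theorem e_5 : wd_7 = cmW [.p6] hw_5 := rfl
theorem e_6 : wd_8 = cmW [.p7] hw_6 := rfl
theorem e_7 : wd_9 = cmW [.p8] hw_7 := rfl
theorem e_8 : w9 = cmW [.p9] hw_8 := rfl

/-- derived series of `H` inside the big group -/
noncomputable def DS (n : ℕ) : Subgroup G := (derivedSeries H n).map H.subtype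

theorem ds0 {x : G} (hx : x ∈ H) : x ∈ DS 0 := ⟨⟨x, hx⟩, by simp [derivedSeries_zero], rfl⟩

theorem ds_conj {n : ℕ} {x h : G} (hx : x ∈ DS n) (hh : h ∈ H) : h⁻¹ * x * h ∈ DS n := by
  obtain ⟨y, hy, rfl⟩ := hx
  have hn : (derivedSeries H n).Normal := derivedSeries_normal H n
  refine ⟨(⟨h, hh⟩ : H)⁻¹ * y * ⟨h, hh⟩, ?_, rfl⟩
  have := hn.conj_mem y hy (⟨h, hh⟩ : H)⁻¹
  rwa [inv_inv] at this

theorem ds_comm {n : ℕ} {x y : G} (hx : x ∈ DS n) (hy : y ∈ DS n) : x⁻¹ * y⁻¹ * x * y ∈ DS (n + 1) := by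
  obtain ⟨a, ha, rfl⟩ := hx
  obtain ⟨b, hb, rfl⟩ := hy
  refine ⟨⁅a⁻¹, b⁻¹⁆, ?_, ?_⟩
  · rw [derivedSeries_succ]
    exact Subgroup.commutator_mem_commutator (inv_mem ha) (inv_mem hb)
  · rw [commutatorElement_def]
    simp

theorem ds_step {n : ℕ} {u h : List X} (hu : V u ∈ DS n) (hh : V h ∈ H) : V (cmW u h) ∈ DS (n + 1) := by
  rw [V_cmW]
  exact ds_comm hu (ds_conj hu hh)

theorem hws_mem {w : List X} (hw : w ∈ hws) : V w ∈ H := closedG k_hws (mem_C hw)

theorem ds_p2 : V [.p2] ∈ DS 1 := by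
  rw [V_single, ← V_eq ckd_2 cki_2, e_0]
  exact ds_step (ds0 (hws_mem (by simp [hws]))) (hws_mem (by simp [hws]))
theorem ds_p3 : V [.p3] ∈ DS 2 := by
  rw [V_single, ← V_eq ckd_3 cki_3, e_1]
  exact ds_step (ds_p2) (hws_mem (by simp [hws]))
theorem ds_p4 : V [.p4] ∈ DS 3 := by
  rw [V_single, ← V_eq ckd_4 cki_4, e_2]
  exact ds_step (ds_p3) (hws_mem (by simp [hws]))
theorem ds_p5 : V [.p5] ∈ DS 4 := by
  rw [V_single, ← V_eq ckd_5 cki_5, e_3]
  exact ds_step (ds_p4) (hws_mem (by simp [hws]))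
theorem ds_p6 : V [.p6] ∈ DS 5 := by
  rw [V_single, ← V_eq ckd_6 cki_6, e_4]
  exact ds_step (ds_p5) (hws_mem (by simp [hws]))
theorem ds_p7 : V [.p7] ∈ DS 6 := by
  rw [V_single, ← V_eq ckd_7 cki_7, e_5]
  exact ds_step (ds_p6) (hws_mem (by simp [hws]))
theorem ds_p8 : V [.p8] ∈ DS 7 := by
  rw [V_single, ← V_eq ckd_8 cki_8, e_6]
  exact ds_step (ds_p7) (hws_mem (by simp [hws]))
theorem ds_p9 : V [.p9] ∈ DS 8 := by
  rw [V_single, ← V_eq ckd_9 cki_9, e_7]
  exact ds_step (ds_p8) (hws_mem (by simp [hws]))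
theorem ds_9 : V w9 ∈ DS 9 := by
  rw [e_8]
  exact ds_step ds_p9 (hws_mem (by simp [hws]))

theorem w9_ne : V w9 ≠ 1 := by
  intro h
  have h1 : appF net w9 (Nat.shiftLeft 1 0) = Nat.shiftLeft 1 0 := by
    apply Nat.eq_of_testBit_eq
    intro b
    rw [(appF_BP w9).bit, h, map_one]
    rfl
  have h2 := k_u9
  rw [h1, Nat.beq_refl] at h2
  exact absurd h2 (by simp)

theorem ds_ne_bot : derivedSeries H 9 ≠ ⊥ := by
  intro h
  obtain ⟨y, hy, hy2⟩ := ds_9
  rw [h] at hy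
  have h1 : y = 1 := by simpa using hy
  rw [h1, map_one] at hy2
  exact w9_ne hy2.symm

theorem derived_ne : derivedSeries H 10 ≠ derivedSeries H 9 := by
  intro h
  have h1 : ∀ n, derivedSeries H (9 + n) = derivedSeries H 9 := by
    intro n
    induction n with
    | zero => rfl
    | succ n ih =>
      rw [← Nat.add_assoc, derivedSeries_succ, ih, ← derivedSeries_succ]
      exact h
  obtain ⟨n, hn⟩ := solvable_H.solvable
  have h2 : derivedSeries H (9 + n) ≤ derivedSeries H n := by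
    rw [Nat.add_comm]
    exact derivedSeries_antitone H (Nat.le_add_right n 9)
  rw [h1, hn] at h2
  exact ds_ne_bot (le_bot_iff.1 h2)

theorem exists_nc : ∃ g : G, g * t ≠ t * g := by
  obtain ⟨g, hg⟩ := htr 1 (by norm_num)
  refine ⟨g, fun h => ?_⟩
  rw [(comm_iff g).1 h] at hg
  omega

end H94.F23
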